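import Cfsg.Agent.H972.CS.Main
import Cfsg.Agent.H448.FprCent.Det

/-!
# Crude evaluation of the centralizer formula (S5745; helper275)

* `det_le` : `|det (θ - q)| ≤ (q + 1) ^ l` for `θ` of finite order;
* `exists_period_root` : a lattice automorphism preserving the roots has finite order;
* `val_le` : `val ≤ (q + 1) ^ l * (q ^ (2 |Ψ⁺|) * |Cw|)`.
-/

set_option autoImplicit false
set_option linter.unusedSectionVars false

namespace Cfsg.Agent.H275.CS.Det

open CoxeterSystem Cfsg Cfsg.Lie Cfsg.Lie.ChevalleyDatum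
open Cfsg.Agent.ChevalleyStructure Cfsg.Agent.ChevalleyStructure.Elts Cfsg.Agent.ChevalleyStructure.CoxeterGeom
  Cfsg.Agent.ChevalleyStructure.CoxeterGeomTypes Cfsg.Agent.ChevalleyStructure.NPerm
open Cfsg.Agent.Tits.Roots Cfsg.Agent.Tits.Core Cfsg.Agent.Nodes Cfsg.Agent.Nodes.Reps Cfsg.Agent.Nodes.BNOf
  Cfsg.Agent.Nodes.RGDChev Cfsg.Agent.Nodes.NormalForm
open Cfsg.Agent.H129.TorusMain Cfsg.Agent.H972.CS.Torus Cfsg.Agent.H972.CS.Main

/-- **The determinant of `θ - q`.** -/
theorem det_le {l : ℕ} (th : (Fin l → ℤ) →+ (Fin l → ℤ)) {N : ℕ} (hN : 0 < N) (hth : ∀ x, th^[N] x = x) (q : ℕ) :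
    (LinearMap.det (gq th q)).natAbs ≤ (q + 1) ^ l := by
  have h1 : (th.toIntLinearMap : Module.End ℤ (Fin l → ℤ)) ^ N = 1 := by
    refine LinearMap.ext fun x => ?_
    rw [Module.End.pow_apply]
    exact hth x
  have h2 := Cfsg.Agent.H448.FprCent.natAbs_det_le hN.ne' h1 q
  exact h2

section

variable {I W : Type*} [Fintype I] [DecidableEq I] [Group W] {M : CoxeterMatrix I}
  {cs : CoxeterSystem M W} {A : I → I → ℤ} {h : IsCartan M A}

/-- a lattice endomorphism permuting the roots has finite order -/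
theorem exists_period_root [Finite W] {th : (I → ℤ) →+ (I → ℤ)} (hr : ∀ a, IsRoot cs h a → IsRoot cs h (th a))
    (hi : Function.Injective th) : ∃ N : ℕ, 0 < N ∧ ∀ x, th^[N] x = x := by
  classical
  have hfin : Finite {a : I → ℤ // IsRoot cs h a} := (RGD.finite_roots (cs := cs) (h := h)).to_subtype
  let f : {a : I → ℤ // IsRoot cs h a} → {a : I → ℤ // IsRoot cs h a} := fun a => ⟨th a.1, hr _ a.2⟩
  have hf : Function.Injective f := fun a b e => Subtype.ext (hi (congrArg Subtype.val e))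
  let e : Equiv.Perm {a : I → ℤ // IsRoot cs h a} := Equiv.ofBijective f (Finite.injective_iff_bijective.1 hf)
  have hN := orderOf_pos e
  refine ⟨orderOf e, hN, fun x => ?_⟩
  have h1 : ∀ (j : ℕ) (a : {a : I → ℤ // IsRoot cs h a}), ((e ^ j) a).1 = th^[j] a.1 := by
    intro j
    induction j with
    | zero => intro a; rfl
    | succ j ih =>
      intro a
      rw [pow_succ', Equiv.Perm.mul_apply, Function.iterate_succ_apply', ← ih]
      rfl
  have h2 : ∀ i, th^[orderOf e] (sr i) = sr i := fun i => by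
    have h3 := h1 (orderOf e) ⟨sr i, isRoot_sr cs h i⟩
    rw [pow_orderOf_eq_one] at h3
    exact h3.symm
  have h3 : ∀ (j : ℕ), ∃ G : (I → ℤ) →+ (I → ℤ), ∀ x, G x = th^[j] x := by
    intro j
    induction j with
    | zero => exact ⟨AddMonoidHom.id _, fun x => rfl⟩
    | succ j ih =>
      obtain ⟨G, hG⟩ := ih
      exact ⟨th.comp G, fun x => by rw [Function.iterate_succ_apply', ← hG x]; rfl⟩
  obtain ⟨G, hG⟩ := h3 (orderOf e)
  rw [← hG]
  have e1 : x = ∑ i, x i • (sr i : I → ℤ) := by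
    funext j
    rw [Finset.sum_apply, Finset.sum_eq_single j]
    · rw [Pi.smul_apply, sr_self, smul_eq_mul, mul_one]
    · intro b _ hb
      rw [Pi.smul_apply, sr_ne (Ne.symm hb), smul_zero]
    · intro h1
      exact absurd (Finset.mem_univ j) h1
  conv_lhs => rw [e1]
  conv_rhs => rw [e1]
  rw [map_sum]
  exact Finset.sum_congr rfl fun j _ => by rw [map_zsmul, hG, h2]

end

section

variable {D : ChevalleyDatum} {l : ℕ} {M : CoxeterMatrix (Fin l)} (hp : IsType D l M)
  {W : Type*} [Group W] (cs : CoxeterSystem M W)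

/-- `θ = w g` has finite order if `g` permutes the roots -/
theorem det_theta_le {g : (Fin l → ℤ) ≃+ (Fin l → ℤ)}
    (hg : ∀ a, IsRoot cs hp.isCartan a → IsRoot cs hp.isCartan (g a)) (w : W) (q : ℕ) :
    (LinearMap.det (gq (theta hp cs w g) q)).natAbs ≤ (q + 1) ^ l := by
  have := finite_W hp cs
  obtain ⟨N, hN, h1⟩ := exists_period_root (cs := cs) (h := hp.isCartan) (th := theta hp cs w g)
    (fun a ha => (hg a ha).act w) (g.trans (Cfsg.Agent.BpExc.Fr.repAut cs hp.isCartan w)).injective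
  exact det_le _ hN h1 q

theorem finite_psi {s : ℕ} (f : (Fin l → ℤ) →+ ZMod s) : (psi cs hp.isCartan f).Finite := by
  have := finite_W hp cs
  exact (RGD.finite_roots (cs := cs) (h := hp.isCartan)).subset fun _ hx => hx.1

/-- **The crude bound.** -/
theorem val_le {g : (Fin l → ℤ) ≃+ (Fin l → ℤ)}
    (hg : ∀ a, IsRoot cs hp.isCartan a → IsRoot cs hp.isCartan (g a)) {s : ℕ} (f : (Fin l → ℤ) →+ ZMod s) (w : W)
    {q : ℕ} (hq : 0 < q) (Cw : Finset W) : val hp cs g q f w Cw ≤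
      (q + 1) ^ l * (q ^ (2 * (psi cs hp.isCartan f).ncard) * Cw.card) := by
  unfold val
  refine Nat.mul_le_mul (det_theta_le hp cs hg w q) ?_
  have h1 : ∀ v ∈ Cw, q ^ (psiN cs hp.isCartan f v).ncard ≤ q ^ (psi cs hp.isCartan f).ncard := fun v _ =>
    Nat.pow_le_pow_right hq (Set.ncard_le_ncard (fun a ha => ⟨ha.1, ha.2.1, ha.2.2.1⟩) (finite_psi hp cs f))
  have h2 := Finset.sum_le_card_nsmul Cw _ _ h1
  rw [smul_eq_mul] at h2
  calc q ^ (psi cs hp.isCartan f).ncard * ∑ v ∈ Cw, q ^ (psiN cs hp.isCartan f v).ncard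
      ≤ q ^ (psi cs hp.isCartan f).ncard * (Cw.card * q ^ (psi cs hp.isCartan f).ncard) := Nat.mul_le_mul_left _ h2
    _ = _ := by ring

end

end Cfsg.Agent.H275.CS.Det
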